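import Cfsg.Agent.Lib.CoreBasic

/-! Counting lemmas for S3929. -/

set_option autoImplicit false

namespace CfsgLib.Inv

open Subgroup

theorem fib_le {α β : Type*} [Finite α] [Finite β] {s : Set α} {t : Set β} (f : α → β)
    (hf : ∀ a ∈ s, f a ∈ t) (n : ℕ)
    (h : ∀ a₀ ∈ s, {a | a ∈ s ∧ f a = f a₀}.ncard ≤ n) : s.ncard ≤ n * t.ncard := by
  classical
  have := Fintype.ofFinite α
  have := Fintype.ofFinite β
  rw [Set.ncard_eq_toFinset_card' s, Set.ncard_eq_toFinset_card' t]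
  refine Finset.card_le_mul_card_image_of_maps_to (f := f) (fun a ha => ?_) n fun b _ => ?_
  · simpa using hf a (by simpa using ha)
  · rcases (Finset.filter (fun a => f a = b) s.toFinset).eq_empty_or_nonempty with e | ⟨d, hd⟩
    · simp [e]
    obtain ⟨h1, rfl⟩ := Finset.mem_filter.1 hd
    have := h d (by simpa using h1)
    rw [Set.ncard_eq_toFinset_card'] at this
    convert this using 2
    ext; simp

theorem fib_ge {α β : Type*} [Finite α] [Finite β] {s : Set α} {t : Set β} (f : α → β) (n : ℕ)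
    (h : ∀ b ∈ t, n ≤ {a | a ∈ s ∧ f a = b}.ncard) : n * t.ncard ≤ s.ncard := by
  classical
  have := Fintype.ofFinite α
  have := Fintype.ofFinite β
  refine le_trans ?_ (Set.ncard_le_ncard (s := {a | a ∈ s ∧ f a ∈ t}) fun a ha => ha.1)
  rw [Set.ncard_eq_toFinset_card' t, Set.ncard_eq_toFinset_card']
  refine Finset.mul_card_image_le_card_of_maps_to (f := f) (fun a ha => ?_) n fun b hb => ?_
  · simpa using (by simpa using ha : a ∈ s ∧ f a ∈ t).2
  · have hb' : b ∈ t := by simpa using hb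
    have := h b hb'
    rw [Set.ncard_eq_toFinset_card'] at this
    convert this using 2
    ext a
    simp only [Finset.mem_filter, Set.mem_toFinset, Set.mem_ofPred_eq]
    exact ⟨fun h => ⟨h.1.1, h.2⟩, fun h => ⟨⟨h.1, h.2 ▸ hb'⟩, h.2⟩⟩

theorem ncard_le_card {α G : Type*} [Group G] [Finite G] {s : Set α} (H : Subgroup G) (f : α → G)
    (hf : ∀ a ∈ s, f a ∈ H) (hi : Set.InjOn f s) : s.ncard ≤ Nat.card H := by
  rw [← SetLike.coe_sort_coe, Nat.card_coe_set_eq]
  exact Set.ncard_le_ncard_of_injOn f hf hi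

theorem card_eq_ncard {G : Type*} [Group G] (H : Subgroup G) : Nat.card H = (H : Set G).ncard := by
  rw [← SetLike.coe_sort_coe, Nat.card_coe_set_eq]

variable {G : Type*} [Group G]

theorem card_eq_map_mul {H : Type*} [Group H] (K : Subgroup G) (f : G →* H) :
    Nat.card K = Nat.card (K.map f) * Nat.card (K ⊓ f.ker : Subgroup G) := by
  rw [← relIndex_ker, mul_comm, inf_comm, card_inf_mul_relIndex]

variable [Finite G]

theorem exists_odd_pow (x : G) : ∃ s : ℕ, Odd (orderOf (x ^ 2 ^ s)) := by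
  obtain ⟨k, u, hu, e⟩ := Nat.exists_eq_two_pow_mul_odd (orderOf_pos x).ne'
  refine ⟨k, hu.of_dvd_nat (orderOf_dvd_of_pow_eq_one ?_)⟩
  rw [← pow_mul, ← e, pow_orderOf_eq_one]

theorem odd_pow {x : G} (h : Odd (orderOf x)) (k : ℕ) : Odd (orderOf (x ^ k)) :=
  h.of_dvd_nat (orderOf_pow_dvd k)

theorem exists_pow_of_odd {x : G} (h : Odd (orderOf x)) (s : ℕ) : ∃ u : ℕ, (x ^ 2 ^ s) ^ u = x :=
  exists_pow_eq_self_of_coprime (Nat.Coprime.pow_left s (Nat.coprime_two_left.2 h))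

/-- The square-root tree. -/
theorem tree (H : Subgroup G) (b : G) (k : ℕ) :
    {y | y ∈ H ∧ b * y * b⁻¹ = y⁻¹ ∧ y ^ 2 ^ k = 1}.ncard ≤
      Nat.card (H ⊓ centralizer {b} : Subgroup G) ^ k := by
  induction k with
  | zero =>
    refine (Set.ncard_le_ncard (t := {1}) fun y hy => ?_).trans (by simp)
    simpa using hy.2.2
  | succ k ih =>
    rw [pow_succ' (Nat.card _)]
    refine (fib_le (t := {y | y ∈ H ∧ b * y * b⁻¹ = y⁻¹ ∧ y ^ 2 ^ k = 1}) (fun y => y * y)
      (fun y hy => ⟨mul_mem hy.1 hy.1, ?_, ?_⟩) _ fun y₀ hy₀ => ?_).trans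
      (Nat.mul_le_mul_left _ ih)
    · rw [mul_inv_rev, ← hy.2.1]; group
    · rw [← sq, ← pow_mul, ← pow_succ']; exact hy.2.2
    · refine ncard_le_card _ (fun y => y * y₀⁻¹) 
        (fun y hy => ⟨H.mul_mem hy.1.1 (H.inv_mem hy₀.1), ?_⟩)
        fun y _ y' _ e => by simpa using e
      refine mem_centralizer_singleton_iff.2 ?_
      have e1 : b * (y * y₀⁻¹) * b⁻¹ = y⁻¹ * y₀ := by
        calc b * (y * y₀⁻¹) * b⁻¹ = (b * y * b⁻¹) * (b * y₀ * b⁻¹)⁻¹ := by group
          _ = _ := by rw [hy.1.2.1, hy₀.2.1, inv_inv]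
      have e2 : y⁻¹ * y₀ = y * y₀⁻¹ := by
        have : y * y = y₀ * y₀ := hy.2
        calc y⁻¹ * y₀ = y⁻¹ * (y₀ * y₀) * y₀⁻¹ := by group
          _ = _ := by rw [← this]; group
      rw [e2] at e1
      exact (mul_inv_eq_iff_eq_mul.1 e1).symm

end CfsgLib.Inv
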