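import Cfsg.Agent.Lib.CoreSubnormal

/-! Zenkov's theorem for abelian `p`-subgroups. -/

set_option autoImplicit false

namespace CfsgLib.Inv

open Subgroup Cfsg

universe u

theorem zenkov_aux {p : ℕ} [Fact p.Prime] (G : Type u) [Group G] [Finite G] :
    ∀ A B : Subgroup G, IsPGroup p A → (∀ x ∈ A, ∀ y ∈ A, x * y = y * x) →
      (∀ x ∈ B, ∀ y ∈ B, x * y = y * x) →
      (∀ g : G, Nat.card (A ⊓ B : Subgroup G) ≤
        Nat.card (A ⊓ B.map (MulAut.conj g).toMonoidHom : Subgroup G)) → A ⊓ B ≤ pCore p G := by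
  refine card_induction (P := fun G _ _ => ∀ A B : Subgroup G, IsPGroup p A →
      (∀ x ∈ A, ∀ y ∈ A, x * y = y * x) → (∀ x ∈ B, ∀ y ∈ B, x * y = y * x) →
      (∀ g : G, Nat.card (A ⊓ B : Subgroup G) ≤
        Nat.card (A ⊓ B.map (MulAut.conj g).toMonoidHom : Subgroup G)) → A ⊓ B ≤ pCore p G)
    (fun G _ _ ih A B hp hA hB hm => ?_) G
  by_cases h : ∃ g : G, A ⊔ B.map (MulAut.conj g).toMonoidHom = ⊤
  · obtain ⟨g, hg⟩ := h
    have h1 : A ⊓ B.map (MulAut.conj g).toMonoidHom ≤ center G := by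
      intro x hx
      have : (⊤ : Subgroup G) ≤ centralizer {x} := by
        rw [← hg]
        refine sup_le (fun y hy => mem_centralizer_singleton_iff.2 (hA y hy x hx.1)) ?_
        obtain ⟨-, x, hx, rfl⟩ := hx
        rintro _ ⟨y, hy, rfl⟩
        rw [mem_centralizer_singleton_iff, ← map_mul, ← map_mul, hB y hy x hx]
      exact mem_center_iff.2 fun y => mem_centralizer_singleton_iff.1 (this (mem_top y))
    have h2 : A ⊓ B.map (MulAut.conj g).toMonoidHom ≤ A ⊓ B := fun x hx => ⟨hx.1, by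
      have := mem_map_conj_iff.1 hx.2
      rwa [mem_center_iff.1 (h1 hx) g⁻¹, inv_mul_cancel_right] at this⟩
    rw [eq_of_le_of_card_le h2 (hm g)] at h1
    have : (A ⊓ B).Normal := ⟨fun x hx y => by
      rwa [mem_center_iff.1 (h1 hx) y, mul_inv_cancel_right]⟩
    exact le_pCore (hp.to_le inf_le_left)
  push Not at h
  refine le_pCore_of_forall_conj fun x => ?_
  set H := A ⊔ B.map (MulAut.conj x).toMonoidHom
  have hAH : A ≤ H := le_sup_left
  have h1 := ih H (card_lt_of_ne_top (h x)) (A.subgroupOf H) (B.subgroupOf H)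
    (hp.of_equiv (subgroupOfEquivOfLe hAH).symm) (fun a ha b hb => Subtype.ext (hA _ ha _ hb))
    (fun a ha b hb => Subtype.ext (hB _ ha _ hb)) fun g => by
      have e : A.subgroupOf H ⊓ (B.subgroupOf H).map (MulAut.conj g).toMonoidHom =
          (A ⊓ B.map (MulAut.conj (g : G)).toMonoidHom).subgroupOf H := by
        ext y
        simp only [mem_inf, mem_subgroupOf, mem_map_conj_iff]
        rfl
      rw [e, show A.subgroupOf H ⊓ B.subgroupOf H = (A ⊓ B).subgroupOf H from rfl,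
        card_subgroupOf_of_le (inf_le_left.trans hAH), card_subgroupOf_of_le (inf_le_left.trans hAH)]
      exact hm g
  have h2 : A ⊓ B ≤ (pCore p H).map H.subtype := fun y hy => ⟨⟨y, hAH hy.1⟩, h1 hy, rfl⟩
  refine (IsPGroup.to_sup_of_normal_left' (map_pCore_isPGroup p H)
    ((hp.to_le (inf_le_left (b := B))).map (MulAut.conj x).toMonoidHom) ?_).to_le
    (sup_le_sup_right h2 _)
  exact ((map_mono inf_le_right).trans le_sup_right).trans
    (le_normalizer.trans (normalizer_le_normalizer_map_pCore p H))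

theorem zenkov {p : ℕ} [Fact p.Prime] {G : Type*} [Group G] [Finite G] (A : Subgroup G)
    (hp : IsPGroup p A) (hA : ∀ x ∈ A, ∀ y ∈ A, x * y = y * x) :
    ∃ g : G, A ⊓ A.map (MulAut.conj g).toMonoidHom ≤ pCore p G := by
  obtain ⟨g, hg⟩ := Finite.exists_min fun g : G =>
    Nat.card (A ⊓ A.map (MulAut.conj g).toMonoidHom : Subgroup G)
  refine ⟨g, zenkov_aux G A _ hp hA ?_ fun g' => ?_⟩
  · rintro _ ⟨x, hx, rfl⟩ _ ⟨y, hy, rfl⟩
    rw [← map_mul, ← map_mul, hA x hx y hy]
  · rw [← map_conj_mul]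
    exact hg _

end CfsgLib.Inv
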