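import Cfsg.Agent.Lib.Inv.Two
import Cfsg.Agent.Lib.Inv.Zen

/-! The counting argument for S3929. -/

set_option autoImplicit false

namespace CfsgLib.Inv

open Subgroup Cfsg

variable {X : Type*} [Group X]

/-- Conjugation action on an invariant set. -/
def conjPerm (C : Subgroup X) (Ω : Set X) (h : ∀ c ∈ C, ∀ x ∈ Ω, c * x * c⁻¹ ∈ Ω) :
    C →* Equiv.Perm Ω :=
  letI : MulAction C Ω :=
    { smul := fun c x => ⟨c * x * (c : X)⁻¹, h c c.2 x x.2⟩
      one_smul := fun x => Subtype.ext (by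
        show (1 : X) * x * (1 : X)⁻¹ = x
        simp)
      mul_smul := fun c d x => Subtype.ext (by
        show (c : X) * d * x * ((c : X) * d)⁻¹ = c * (d * x * (d : X)⁻¹) * (c : X)⁻¹
        group) }
  MulAction.toPermHom C Ω

theorem conjPerm_apply (C : Subgroup X) (Ω : Set X) (h : ∀ c ∈ C, ∀ x ∈ Ω, c * x * c⁻¹ ∈ Ω)
    (c : C) (x : Ω) : (conjPerm C Ω h c x : X) = c * x * (c : X)⁻¹ := rfl

theorem isPGroup_zpowers_of_pow {x : X} {s : ℕ} (h : x ^ 2 ^ s = 1) : IsPGroup 2 (zpowers x) := by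
  rintro ⟨_, k, rfl⟩
  refine ⟨s, Subtype.ext ?_⟩
  show (x ^ k) ^ 2 ^ s = 1
  rw [← zpow_natCast, ← zpow_mul, mul_comm, zpow_mul, zpow_natCast, h, one_zpow]

/-- The conjugacy class. -/
def cls (a : X) : Set X := {γ | ∃ g, g * a * g⁻¹ = γ}

/-- The inverted elements of odd order. -/
def oinv (a : X) : Set X := {x | Odd (orderOf x) ∧ a * x * a⁻¹ = x⁻¹}

theorem conj_mem_cls {a γ : X} (h : γ ∈ cls a) (g : X) : g * γ * g⁻¹ ∈ cls a := by
  obtain ⟨g', rfl⟩ := h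
  exact ⟨g * g', by group⟩

theorem sq_of_mem_cls {a γ : X} (haa : a * a = 1) (h : γ ∈ cls a) : γ * γ = 1 := by
  obtain ⟨g, rfl⟩ := h
  calc _ = g * (a * a) * g⁻¹ := by group
    _ = 1 := by simp [haa]

theorem not_mem_of_mem_cls {G : Subgroup X} [hG : G.Normal] {a γ : X} (ha : a ∉ G)
    (h : γ ∈ cls a) : γ ∉ G := by
  obtain ⟨g, rfl⟩ := h
  exact fun h => ha (by simpa [mul_assoc] using hG.conj_mem _ h g⁻¹)

variable [Finite X]

theorem ncard_conj_le (G : Subgroup X) (a : X) {s t : Set X} (hs : s ⊆ G)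
    (h : ∀ g ∈ s, g * a * g⁻¹ ∈ t) :
    s.ncard ≤ Nat.card (G ⊓ centralizer {a} : Subgroup X) * t.ncard := by
  refine fib_le (fun g => g * a * g⁻¹) h _ fun g₀ hg₀ => ?_
  refine ncard_le_card _ (fun g => g₀⁻¹ * g) (fun g hg => ⟨G.mul_mem (G.inv_mem (hs hg₀)) (hs hg.1),
    mem_centralizer_singleton_iff.2 ?_⟩) fun y _ y' _ e => by simpa using e
  have e : g * a * g⁻¹ = g₀ * a * g₀⁻¹ := hg.2
  calc g₀⁻¹ * g * a = g₀⁻¹ * (g * a * g⁻¹) * g := by group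
    _ = _ := by rw [e]; group

theorem cls_le {a : X} (haa : a * a = 1) :
    (cls a).ncard ≤ (oinv a).ncard * {γ | γ ∈ cls a ∧ ∃ s : ℕ, (a * γ) ^ 2 ^ s = 1}.ncard := by
  rw [← Set.ncard_prod]
  refine le_trans (Set.ncard_le_ncard ?_ (Set.toFinite _))
    (Set.ncard_image_le (f := fun p : X × X => p.2 * p.1) (Set.toFinite _))
  intro γ hγ
  have hγ2 := sq_of_mem_cls haa hγ
  obtain ⟨s, hs⟩ := exists_odd_pow (a * γ)
  obtain ⟨u, hu⟩ := exists_pow_of_odd hs s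
  have h1 : a * (a * γ) * a⁻¹ = (a * γ)⁻¹ := by
    rw [← mul_assoc, haa, one_mul, mul_inv_rev, inv_eq_of_mul_eq_one_right hγ2]
  have h2 : γ * (a * γ) * γ⁻¹ = (a * γ)⁻¹ := by
    rw [← mul_assoc, mul_inv_cancel_right, mul_inv_rev, inv_eq_of_mul_eq_one_right hγ2,
      inv_eq_of_mul_eq_one_right haa]
  set x := a * γ with hx
  have h3 := odd_pow hs u
  obtain ⟨v, hv⟩ := exists_pow_of_odd h3 1
  refine ⟨((x ^ 2 ^ s) ^ u, γ * ((x ^ 2 ^ s) ^ u)⁻¹), ⟨⟨h3, ?_⟩, ?_, s, ?_⟩, by simp⟩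
  · simp only [← conj_pow, h1, inv_pow]
  · have h4 : γ * (((x ^ 2 ^ s) ^ u) ^ v) * γ⁻¹ = (((x ^ 2 ^ s) ^ u) ^ v)⁻¹ := by
      simp only [← conj_pow, h2, inv_pow]
    have h5 := conj_mem_cls hγ (((x ^ 2 ^ s) ^ u) ^ v)
    rw [← pow_mul _ (2 ^ 1), mul_comm (2 ^ 1), pow_mul, pow_one, sq] at hv
    generalize ((x ^ 2 ^ s) ^ u) ^ v = i at *
    rw [← hv]
    convert h5 using 1
    have h6 : γ * i⁻¹ * γ⁻¹ = i := by rw [← conj_inv, h4, inv_inv]
    calc γ * (i * i)⁻¹ = (γ * i⁻¹ * γ⁻¹) * γ * i⁻¹ := by group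
      _ = _ := by rw [h6]
  · simp only
    rw [← mul_assoc, ← hx, (((Commute.refl x).pow_right _).pow_right _).inv_right.mul_pow, inv_pow,
      ← pow_mul (x ^ 2 ^ s), mul_comm u, pow_mul (x ^ 2 ^ s), hu, mul_inv_cancel]

variable {G : Subgroup X} (hG : G.index = 2) {a : X} (ha : a ∉ G) (haa : a * a = 1)
include hG ha haa

theorem two_le (S : Sylow 2 X) (haS : a ∈ S) :
    {γ | γ ∈ cls a ∧ ∃ s : ℕ, (a * γ) ^ 2 ^ s = 1}.ncard ≤
      Nat.card (G ⊓ centralizer {a} : Subgroup X) * (cls a ∩ S).ncard := by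
  have := normal_of_index_eq_two hG
  have h1 : (cls a ∩ S).ncard ≤ Nat.card (G ⊓ S : Subgroup X) :=
    ncard_le_card _ (fun β => a * β) (fun β hβ => ⟨(mul_mem_iff_of_index_two hG).2
      (iff_of_false ha (not_mem_of_mem_cls ha hβ.1)), S.1.mul_mem haS hβ.2⟩)
      fun y _ y' _ e => by simpa using e
  have h2 := ncard_conj_le G a (s := {g | g ∈ G ∧ g * a * g⁻¹ ∈ S}) (t := cls a ∩ S)
    (fun g hg => hg.1) fun g hg => ⟨⟨g, rfl⟩, hg.2⟩
  have h3 := fib_ge (s := {g | g ∈ G ∧ g * a * g⁻¹ ∈ S} ×ˢ (cls a ∩ S))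
    (t := {γ | γ ∈ cls a ∧ ∃ s : ℕ, (a * γ) ^ 2 ^ s = 1}) (fun p : X × X => p.1⁻¹ * p.2 * p.1)
    (Nat.card (G ⊓ S : Subgroup X)) (by
      rintro γ ⟨hγ, s, hs⟩
      have hγ2 := sq_of_mem_cls haa hγ
      have h4 : IsPGroup 2 (zpowers (a * γ) ⊔ zpowers a : Subgroup X) := by
        refine IsPGroup.to_sup_of_normal_left' (isPGroup_zpowers_of_pow hs)
          (isPGroup_zpowers_of_pow (s := 1) (by simp [sq, haa])) (zpowers_le.2 ?_)
        refine mem_normalizer_of_conj_mem ?_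
        rintro _ ⟨k, rfl⟩
        have h1 : a * (a * γ) * a⁻¹ = (a * γ)⁻¹ := by
          rw [← mul_assoc, haa, one_mul, mul_inv_rev, inv_eq_of_mul_eq_one_right hγ2]
        simp only
        rw [← conj_zpow, h1]
        exact zpow_mem (inv_mem (mem_zpowers _)) _
      obtain ⟨Q, hQ⟩ := h4.exists_le_sylow
      obtain ⟨g, rfl⟩ := MulAction.exists_smul_eq X Q S
      have haQ : a ∈ Q := hQ (mem_sup_right (mem_zpowers a))
      have hγQ : γ ∈ Q := by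
        have := Q.1.mul_mem haQ (hQ (mem_sup_left (mem_zpowers _)))
        rwa [← mul_assoc, haa, one_mul] at this
      have h5 : ∀ x ∈ Q, g * x * g⁻¹ ∈ g • Q := fun x hx => ⟨x, hx, rfl⟩
      obtain ⟨g₀, h6, h7, h8⟩ : ∃ g₀ ∈ G, g₀ * a * g₀⁻¹ ∈ g • Q ∧ g₀ * γ * g₀⁻¹ ∈ g • Q := by
        by_cases hg : g ∈ G
        · exact ⟨g, hg, h5 _ haQ, h5 _ hγQ⟩
        · refine ⟨g * a, (mul_mem_iff_of_index_two hG).2 (iff_of_false hg ha), ?_, ?_⟩
          · convert h5 _ haQ using 1; group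
          · convert h5 _ (Q.1.mul_mem (Q.1.mul_mem haQ hγQ) (Q.1.inv_mem haQ)) using 1; group
      rw [card_eq_ncard]
      refine Set.ncard_le_ncard_of_injOn (fun t => (t * g₀, t * (g₀ * γ * g₀⁻¹) * t⁻¹))
        (fun t ht => ⟨⟨⟨G.mul_mem ht.1 h6, ?_⟩, conj_mem_cls (conj_mem_cls hγ _) _, ?_⟩, ?_⟩)
        fun y _ y' _ e => by simpa using congrArg Prod.fst e
      · show t * g₀ * a * (t * g₀)⁻¹ ∈ (g • Q).1
        convert (g • Q).1.mul_mem ((g • Q).1.mul_mem ht.2 h7) ((g • Q).1.inv_mem ht.2) using 1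
        group
      · exact (g • Q).1.mul_mem ((g • Q).1.mul_mem ht.2 h8) ((g • Q).1.inv_mem ht.2)
      · simp only; group)
  rw [Set.ncard_prod] at h3
  refine Nat.le_of_mul_le_mul_left (h3.trans ?_) Nat.card_pos
  rw [mul_comm (Nat.card (G ⊓ S : Subgroup X))]
  exact Nat.mul_le_mul h2 h1

theorem main (hO : pCore 2 X ⊓ G = ⊥) {h : ℕ} (hh : 1 ≤ h) (hJ : (oinv a).ncard ≤ 2 * h + 1)
    (hgen : G ≤ closure (oinv a)) : ∃ k e, Adm (2 * h) k e ∧ Nat.card G ≤ (2 * h + 1) ^ 2 *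
      Nat.card (G ⊓ centralizer {a} : Subgroup X) ^ 4 * 2 ^ (k * (e + min h e)) := by
  have hN := normal_of_index_eq_two hG
  obtain ⟨S, hS⟩ := (isPGroup_zpowers_of_pow (x := a) (s := 1) (by simp [sq, haa])).exists_le_sylow
  have haS : a ∈ S := hS (mem_zpowers a)
  set c := Nat.card (G ⊓ centralizer {a} : Subgroup X)
  set ξ := (cls a ∩ S).ncard
  have h1 : Nat.card G ≤ c * ((2 * h + 1) * (c * ξ)) := by
    rw [card_eq_ncard]
    exact (ncard_conj_le G a (t := cls a) subset_rfl fun g _ => ⟨g, rfl⟩).trans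
      (Nat.mul_le_mul_left _ ((cls_le haa).trans (Nat.mul_le_mul hJ (two_le hG ha haa S haS))))
  obtain ⟨A, hA, hAT, hA', hC⟩ := exists_selfcent S.2 (G.subgroupOf S)
  have : IsMulCommutative A := ⟨⟨fun x y => Subtype.ext (hA' _ x.2 _ y.2)⟩⟩
  have hA2 : ∀ x ∈ A.map S.1.subtype, ∀ y ∈ A.map S.1.subtype, x * y = y * x := by
    rintro _ ⟨x, hx, rfl⟩ _ ⟨y, hy, rfl⟩
    rw [← map_mul, ← map_mul, hA' x hx y hy]
  have hAG : A.map S.1.subtype ≤ G := by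
    rintro _ ⟨x, hx, rfl⟩
    exact hAT hx
  obtain ⟨g, hg⟩ := zenkov (A.map S.1.subtype) ((S.2.to_subgroup A).map _) hA2
  set B := (A.map S.1.subtype).map (MulAut.conj g).toMonoidHom
  have hB : ∀ x ∈ B, ∀ y ∈ B, x * y = y * x := by
    rintro _ ⟨x, hx, rfl⟩ _ ⟨y, hy, rfl⟩
    rw [← map_mul, ← map_mul, hA2 x hx y hy]
  have hBG : B ≤ G := by
    rintro _ ⟨x, hx, rfl⟩
    exact hN.conj_mem _ (hAG hx) g
  let D : X → Subgroup S := fun β =>
    { carrier := {y | (y : X) ∈ B ∧ β * y * β⁻¹ = (y : X)⁻¹}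
      one_mem' := ⟨B.one_mem, by simp⟩
      mul_mem' := fun {x y} hx hy => ⟨B.mul_mem hx.1 hy.1, by
        show β * (x * y) * β⁻¹ = ((x : X) * y)⁻¹
        nth_rewrite 2 [hB _ hx.1 _ hy.1]
        rw [mul_inv_rev, ← hx.2, ← hy.2]
        group⟩
      inv_mem' := fun {x} hx => ⟨B.inv_mem hx.1, by
        show β * (x : X)⁻¹ * β⁻¹ = (x : X)⁻¹⁻¹
        rw [← conj_inv, hx.2]⟩ }
  have haξ : a ∈ cls a ∩ S := ⟨⟨1, by simp⟩, haS⟩
  obtain ⟨β, hβ, hmax⟩ := Set.exists_max_image (cls a ∩ S) (fun β => Nat.card (D β))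
    (Set.toFinite _) ⟨a, haξ⟩
  have h2 : ξ * Nat.card A ≤ Nat.card (D β) * Nat.card G := by
    rw [← card_map_subtype, ← card_map_conj g, card_eq_ncard B, ← Set.ncard_prod, card_eq_ncard G]
    refine fib_le (fun p : X × X => a * (p.1 * p.2)) (fun p hp => ?_) _ fun p₀ hp₀ => ?_
    · rw [← mul_assoc]
      exact G.mul_mem ((mul_mem_iff_of_index_two hG).2
        (iff_of_false ha (not_mem_of_mem_cls ha hp.1.1))) (hBG hp.2)
    · refine le_trans ?_ (hmax _ hp₀.1)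
      rw [← card_map_subtype]
      refine ncard_le_card _ (fun p : X × X => p₀.1 * p.1) (fun p hp => ?_) fun p hp p' hp' e => ?_
      · have e : p.1 * p.2 = p₀.1 * p₀.2 := mul_left_cancel hp.2
        have e0 := sq_of_mem_cls haa hp₀.1.1
        refine ⟨⟨_, S.1.mul_mem hp₀.1.2 hp.1.1.2⟩, ⟨?_, ?_⟩, rfl⟩
        · show p₀.1 * p.1 ∈ B
          rw [show p₀.1 * p.1 = p₀.2 * p.2⁻¹ by
            rw [eq_mul_inv_iff_mul_eq, mul_assoc, e, ← mul_assoc, e0, one_mul]]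
          exact B.mul_mem hp₀.2 (B.inv_mem hp.1.2)
        · show p₀.1 * (p₀.1 * p.1) * p₀.1⁻¹ = (p₀.1 * p.1)⁻¹
          rw [← mul_assoc, e0, one_mul, mul_inv_rev,
            inv_eq_of_mul_eq_one_right (sq_of_mem_cls haa hp.1.1.1)]
      · have e1 : p.1 = p'.1 := mul_left_cancel e
        have e2 : p.1 * p.2 = p'.1 * p'.2 := mul_left_cancel (hp.2.trans hp'.2.symm)
        rw [e1] at e2
        exact Prod.ext e1 (mul_left_cancel e2)
  have hβ2 := sq_of_mem_cls haa hβ.1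
  obtain ⟨g₁, hg₁⟩ := hβ.1
  have hΩ : ∀ c ∈ centralizer {a}, ∀ x ∈ oinv a \ {1}, c * x * c⁻¹ ∈ oinv a \ {1} := by
    intro c hc x hx
    have e : c * a = a * c := mem_centralizer_singleton_iff.1 hc
    refine ⟨⟨hx.1.1.of_dvd_nat (orderOf_map_dvd (MulAut.conj c).toMonoidHom x), ?_⟩,
      fun h => hx.2 (by simpa using h)⟩
    calc a * (c * x * c⁻¹) * a⁻¹ = (a * c) * x * (a * c)⁻¹ := by group
      _ = c * (a * x * a⁻¹) * c⁻¹ := by rw [← e]; group
      _ = _ := by rw [hx.1.2]; group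
  let b : S := ⟨β, hβ.2⟩
  let ψ : (G.subgroupOf S ⊓ centralizer {b} : Subgroup S) →* centralizer {a} :=
    MonoidHom.codRestrict ((MulAut.conj g₁⁻¹).toMonoidHom.comp (S.1.subtype.comp (Subgroup.subtype _))) _
      fun p => mem_centralizer_singleton_iff.2 (by
        have e : (p.1 : X) * β = β * p.1 :=
          congrArg Subtype.val (mem_centralizer_singleton_iff.1 p.2.2)
        rw [← hg₁] at e
        show g₁⁻¹ * p.1 * g₁⁻¹⁻¹ * a = a * (g₁⁻¹ * p.1 * g₁⁻¹⁻¹)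
        calc _ = g₁⁻¹ * (p.1 * (g₁ * a * g₁⁻¹)) * g₁ := by group
          _ = _ := by rw [e]; group)
  obtain ⟨k, e, h3, h4, h5⟩ := two (β := b) hAT (Subtype.ext hβ2) S.2 hC
    ((conjPerm _ _ hΩ).comp ψ) (by
      rw [injective_iff_map_eq_one]
      intro p hp
      have e1 : G ≤ centralizer {(ψ p : X)} := by
        refine hgen.trans ((closure_le _).2 fun x hx => mem_centralizer_singleton_iff.2 ?_)
        by_cases hx1 : x = 1
        · simp [hx1]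
        · have := conjPerm_apply _ _ hΩ (ψ p) ⟨x, hx, hx1⟩
          rw [show conjPerm _ _ hΩ (ψ p) = 1 from hp] at this
          exact eq_mul_inv_iff_mul_eq.1 this
      have e2 : (ψ p : X) ∈ center X := by
        refine mem_center_iff.2 fun x => ?_
        by_cases hx : x ∈ G
        · exact mem_centralizer_singleton_iff.1 (e1 hx)
        · have e3 : x * a * ψ p = ψ p * (x * a) := mem_centralizer_singleton_iff.1
            (e1 ((mul_mem_iff_of_index_two hG).2 (iff_of_false hx ha)))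
          rw [mul_assoc, ← mem_centralizer_singleton_iff.1 (ψ p).2, ← mul_assoc, ← mul_assoc] at e3
          exact mul_right_cancel e3
      obtain ⟨s, hs⟩ := S.2.to_subgroup _ p
      have e3 : (zpowers (ψ p : X)).Normal := ⟨fun x hx y => by
        rwa [mem_center_iff.1 (zpowers_le.2 e2 hx) y, mul_inv_cancel_right]⟩
      have e4 : (ψ p : X) ∈ pCore 2 X ⊓ G := ⟨le_pCore (isPGroup_zpowers_of_pow (s := s) (by
        rw [← Subgroup.coe_pow, ← map_pow, hs, map_one]; rfl)) (mem_zpowers _),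
        hN.conj_mem _ p.2.1 g₁⁻¹⟩
      rw [hO] at e4
      have e5 : g₁⁻¹ * p.1 * g₁⁻¹⁻¹ = 1 := e4
      exact Subtype.ext (Subtype.ext (conj_eq_one_iff.1 e5))) hh (by
      rw [Nat.card_coe_set_eq, Set.ncard_diff_singleton_of_mem (by simp [oinv])]
      omega)
  replace h5 := h5 (D β) (fun y hy => hBG hy.1) (fun y hy => Subtype.ext hy.2) (by
    rw [eq_bot_iff]
    intro y hy
    have : (y : X) ∈ pCore 2 X ⊓ G := ⟨hg ⟨⟨y, hy.2, rfl⟩, hy.1.1⟩, hBG hy.1.1⟩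
    rw [hO] at this
    exact Subtype.ext this)
  have h6 : ξ ≤ Nat.card A * 2 ^ (k * e) := by
    refine le_trans ?_ (le_trans (Set.ncard_image_le (f := S.1.subtype) (Set.toFinite _)) h4)
    refine Set.ncard_le_ncard_of_injOn (fun γ => β * γ) (fun γ hγ => ?_)
      fun y _ y' _ e => by simpa using e
    refine ⟨⟨_, S.1.mul_mem hβ.2 hγ.2⟩, ⟨(mul_mem_iff_of_index_two hG).2
      (iff_of_false (not_mem_of_mem_cls ha hβ.1) (not_mem_of_mem_cls ha hγ.1)), Subtype.ext ?_⟩, rfl⟩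
    show β * (β * γ) * β⁻¹ = (β * γ)⁻¹
    rw [← mul_assoc, hβ2, one_mul, mul_inv_rev, inv_eq_of_mul_eq_one_right (sq_of_mem_cls haa hγ.1)]
  refine ⟨k, e, h3, ?_⟩
  have h7 : Nat.card A ≤ 2 ^ (k * min h e) * (c * ((2 * h + 1) * c)) := by
    refine Nat.le_of_mul_le_mul_left (h2.trans ((Nat.mul_le_mul h5 h1).trans_eq (by ring)))
      ((Set.ncard_pos (Set.toFinite _)).2 ⟨a, haξ⟩)
  refine h1.trans ((Nat.mul_le_mul_left _ (Nat.mul_le_mul_left _ (Nat.mul_le_mul_left _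
    (h6.trans (Nat.mul_le_mul_right _ h7))))).trans_eq ?_)
  rw [mul_add k, pow_add]
  ring

end CfsgLib.Inv
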