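import Mathlib

/-! The module lemma for S3929: an element inverted by an involution acts with bounded order. -/

set_option autoImplicit false

namespace CfsgLib.Inv

section ring

variable {R : Type*} [Ring R]

theorem isNilpotent_sub_one (h2 : IsNilpotent (2 : R)) (r : ℕ) :
    ∀ y : R, y ^ 2 ^ r = 1 → IsNilpotent (y - 1) := by
  induction r with
  | zero => intro y hy; simp at hy; simp [hy]
  | succ r ih =>
    intro y hy
    have h1 := ih (y ^ 2) (by rw [← pow_mul, ← pow_succ']; exact hy)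
    have h3 : IsNilpotent (2 * (y - 1)) :=
      (Commute.ofNat_left 2 (y - 1)).isNilpotent_mul_right h2
    have h4 : (y - 1) ^ 2 = (y ^ 2 - 1) - 2 * (y - 1) := by noncomm_ring
    refine IsNilpotent.of_pow (m := 2) ?_
    rw [h4]
    refine Commute.isNilpotent_sub ?_ h1 h3
    show _ = _
    noncomm_ring

theorem add_two_pow (N : R) (k : ℕ) : ∃ z : R, (N + 2) ^ k = N ^ k + 2 * z := by
  induction k with
  | zero => exact ⟨0, by simp⟩
  | succ k ih =>
    obtain ⟨z, hz⟩ := ih
    exact ⟨N ^ k + z * (N + 2), by rw [pow_succ, hz, pow_succ]; noncomm_ring⟩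

theorem one_add_pow_eq_one (j : ℕ) : ∀ N : R, (∀ t ≤ j, 2 ^ (j - t) * N ^ 2 ^ t = 0) →
    (1 + N) ^ 2 ^ j = 1 := by
  induction j with
  | zero => intro N h; have := h 0 le_rfl; simp at this; simp [this]
  | succ j ih =>
    intro N h
    have e : (1 + N) ^ 2 = 1 + N * (N + 2) := by noncomm_ring
    rw [pow_succ', pow_mul, e]
    refine ih _ fun t ht => ?_
    obtain ⟨z, hz⟩ := add_two_pow N (2 ^ t)
    have hc : Commute N (N + 2) := (Commute.refl N).add_right (Commute.ofNat_right N 2)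
    have h1 := h (t + 1) (by omega)
    have h2 := h t (by omega)
    rw [Nat.add_sub_add_right, pow_succ, pow_mul, sq] at h1
    rw [show j + 1 - t = (j - t) + 1 by omega, pow_succ, mul_assoc] at h2
    rw [hc.mul_pow, hz, mul_add, mul_add, h1, zero_add, ← mul_assoc (N ^ 2 ^ t),
      ← (Commute.ofNat_left 2 (N ^ 2 ^ t)).eq, ← mul_assoc, h2, zero_mul]

end ring

variable {M : Type*} [AddCommGroup M] [Finite M]

theorem shrink (n : AddMonoid.End M) (hn : IsNilpotent n) (U : AddSubgroup M)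
    (hU : U.map n ≤ U) : U = ⊥ ∨ Nat.card (U.map n) * 2 ≤ Nat.card U := by
  by_cases h : U.map n = U
  · left
    obtain ⟨L, hL⟩ := hn
    have key : ∀ i : ℕ, ∀ u ∈ U, ∃ v ∈ U, (n ^ i) v = u := by
      intro i
      induction i with
      | zero => exact fun u hu => ⟨u, hu, rfl⟩
      | succ i ih =>
        intro u hu
        obtain ⟨v, hv, rfl⟩ := ih u hu
        rw [← h] at hv
        obtain ⟨w, hw, rfl⟩ := hv
        exact ⟨w, hw, by rw [pow_succ]; rfl⟩
    rw [eq_bot_iff]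
    intro u hu
    obtain ⟨v, -, rfl⟩ := key L u hu
    rw [hL]; exact zero_mem _
  · right
    obtain ⟨c, hc⟩ := AddSubgroup.card_dvd_of_le hU
    have h1 : c ≠ 1 := by
      rintro rfl
      exact h (AddSubgroup.eq_of_le_of_card_ge hU (by omega))
    have h0 : c ≠ 0 := by
      rintro rfl
      exact (Nat.card_pos (α := U)).ne' (by omega)
    rw [hc]
    exact Nat.mul_le_mul_left _ (by omega)

theorem kill (y : AddMonoid.End M) (h1 : IsNilpotent (y - 1)) (h2 : IsNilpotent (y + 1)) (σ : ℕ) :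
    ∀ U : AddSubgroup M, (∀ u ∈ U, y u ∈ U) → Nat.card U ≤ 4 ^ σ →
      ∀ u ∈ U, ((y ^ 2 - 1) ^ σ : AddMonoid.End M) u = 0 := by
  induction σ with
  | zero =>
    intro U _ h u hu
    have : U = ⊥ := AddSubgroup.eq_bot_of_card_le U h
    rw [this] at hu
    exact hu
  | succ σ ih =>
    intro U hU h u hu
    have e : y ^ 2 - 1 = (y - 1) * (y + 1) := by noncomm_ring
    have hV : ∀ v ∈ U.map (y + 1), y v ∈ U.map (y + 1) := by
      rintro _ ⟨v, hv, rfl⟩
      exact ⟨y v, hU v hv, (map_add y (y v) v).symm⟩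
    have hW : ∀ v ∈ (U.map (y + 1)).map (y - 1), y v ∈ (U.map (y + 1)).map (y - 1) := by
      rintro _ ⟨v, hv, rfl⟩
      exact ⟨y v, hV v hv, (map_sub y (y v) v).symm⟩
    have := ih _ hW (by
      rcases shrink _ h2 U (by
        rintro _ ⟨v, hv, rfl⟩
        exact add_mem (hU v hv) hv) with h3 | h3
      · simp [h3, Nat.one_le_pow]
      rcases shrink _ h1 (U.map (y + 1)) (by
        rintro _ ⟨v, hv, rfl⟩
        exact sub_mem (hV v hv) hv) with h4 | h4
      · simp [h4, Nat.one_le_pow]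
      rw [pow_succ] at h
      omega) _ ⟨_, ⟨u, hu, rfl⟩, rfl⟩
    rw [pow_succ, e]
    rw [e] at this
    exact this

/-- Lemma A. -/
theorem pow_eq_one_of_card (y b : AddMonoid.End M) (hb : b * b = 1) (hy : y * b * y = b)
    {r : ℕ} (hr : y ^ 2 ^ r = 1) (h2 : IsNilpotent (2 : AddMonoid.End M)) (k : ℕ)
    (h : ∀ q ≤ k, Nat.card (AddMonoidHom.range ((2 ^ q * (1 + b) : AddMonoid.End M) : M →+ M)) ≤
      2 ^ (2 ^ (k - q) - 1)) : y ^ 2 ^ (k + 1) = 1 := by
  have h1 := isNilpotent_sub_one h2 r y hr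
  have h3 : IsNilpotent (y + 1) := by
    rw [show y + 1 = (y - 1) + 2 by rw [← one_add_one_eq_two]; abel]
    exact (Commute.ofNat_right _ 2).isNilpotent_add h1 h2
  have e : y ^ 2 - 1 = y * (1 + b) * (b * y) - (1 + b) := by
    have : y * (1 + b) * (b * y) = y * b * y + y * (b * b) * y := by noncomm_ring
    rw [this, hy, hb]; noncomm_ring
  rw [pow_succ', pow_mul, show y ^ 2 = 1 + (y ^ 2 - 1) by noncomm_ring]
  refine one_add_pow_eq_one k _ fun t ht => ?_
  have h4 := h (k - t) (by omega)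
  rw [show k - (k - t) = t by omega] at h4
  set c : AddMonoid.End M := 2 ^ (k - t) with hc
  have hcc : ∀ z : AddMonoid.End M, Commute c z := fun z => (Commute.ofNat_left 2 z).pow_left _
  set Rq := AddMonoidHom.range ((c * (1 + b) : AddMonoid.End M) : M →+ M)
  let U := AddMonoidHom.range ((c * (y ^ 2 - 1) : AddMonoid.End M) : M →+ M)
  have h5 : Nat.card U ≤ Nat.card Rq * Nat.card Rq := by
    rw [← Nat.card_prod]
    have hs : (U : Set M) ⊆ Set.range fun p : Rq × Rq => y p.1 - p.2 := by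
      rintro _ ⟨m, rfl⟩
      refine ⟨(⟨_, (b * y) m, rfl⟩, ⟨_, m, rfl⟩), ?_⟩
      have : c * (y ^ 2 - 1) = y * (c * (1 + b)) * (b * y) - c * (1 + b) := by
        rw [e, ← mul_assoc y c, ← (hcc y).eq]; noncomm_ring
      show _ = (c * (y ^ 2 - 1) : AddMonoid.End M) m
      rw [this]; rfl
    refine (Set.ncard_le_ncard hs).trans ?_
    exact Finite.card_range_le _
  have h6 := kill y h1 h3 (2 ^ t - 1) U (by
    rintro _ ⟨m, rfl⟩
    refine ⟨y m, ?_⟩
    have : c * (y ^ 2 - 1) * y = y * (c * (y ^ 2 - 1)) := by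
      rw [← mul_assoc y c, ← (hcc y).eq]; noncomm_ring
    exact congrArg (fun z : AddMonoid.End M => z m) this) (by
    refine h5.trans ((Nat.mul_le_mul h4 h4).trans_eq ?_)
    rw [← mul_pow]; rfl)
  ext m
  have h7 := h6 _ ⟨m, rfl⟩
  have : c * (y ^ 2 - 1) ^ 2 ^ t = (y ^ 2 - 1) ^ (2 ^ t - 1) * (c * (y ^ 2 - 1)) := by
    rw [← mul_assoc, ← (hcc _).eq, mul_assoc, ← pow_succ,
      Nat.sub_add_cancel (Nat.one_le_pow _ _ (by norm_num))]
  rw [this]
  exact h7

end CfsgLib.Inv
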