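import Mathlib

/-! Numerical estimate for S3929. -/

set_option autoImplicit false

namespace CfsgLib.Inv

open Nat

/-- Admissible parameters. -/
def Adm (n k e : ℕ) : Prop :=
  1 ≤ k ∧ 2 ^ (k - 1) ≤ n ∧ e + (k - 1) ≤ n - 1 ∧ (5 ≤ k → n < 2 ^ k → e + 2 * (k - 2) ≤ n - 1)

/-- The largest admissible `e`. -/
def emax (h k : ℕ) : ℕ :=
  if 5 ≤ k ∧ 2 * h < 2 ^ k then 2 * h - 1 - 2 * (k - 2) else 2 * h - 1 - (k - 1)

theorem num_small : ∀ h < 256, ∀ k < 11, 1 ≤ h → 2 ^ (k - 1) ≤ 2 * h →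
    (2 * h + 1) ^ 2 * (2 ^ h * h !) ^ 4 * 2 ^ (k * (emax h k + min h (emax h k))) <
      (2 * h + 1)! ^ 4 := by
  decide +kernel

theorem succ_pow_le (h : ℕ) (hh : 0 < h) : (h + 1) ^ h ≤ 3 * h ^ h := by
  have h0 : (0 : ℝ) < h := by exact_mod_cast hh
  have h1 : ((h : ℝ) + 1) ^ h ≤ 3 * (h : ℝ) ^ h := by
    have e : ((h : ℝ) + 1) = (1 / h + 1) * h := by field_simp; ring
    rw [e, mul_pow]
    refine mul_le_mul_of_nonneg_right ?_ (by positivity)
    calc (1 / (h : ℝ) + 1) ^ h ≤ (Real.exp (1 / h)) ^ h :=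
          pow_le_pow_left₀ (by positivity) (Real.add_one_le_exp _) _
      _ = Real.exp 1 := by rw [← Real.exp_nat_mul]; congr 1; field_simp
      _ ≤ 3 := Real.exp_one_lt_d9.le.trans (by norm_num)
  exact_mod_cast h1

theorem num_ind (h : ℕ) (hh : 256 ≤ h) : (2 * h + 1) ^ 2 * (4 * h) ^ (3 * h) < (2 * h + 1)! ^ 2 := by
  induction h, hh using Nat.le_induction with
  | base => decide +kernel
  | succ h hh ih =>
    have e1 : (2 * (h + 1) + 1)! = (2 * h + 3) * (2 * h + 2) * (2 * h + 1)! := by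
      rw [show 2 * (h + 1) + 1 = (2 * h + 1 + 1) + 1 by ring, factorial_succ, factorial_succ]; ring
    have e2 : (4 * (h + 1)) ^ (3 * (h + 1)) ≤ 27 * (4 * (h + 1)) ^ 3 * (4 * h) ^ (3 * h) := by
      have := Nat.pow_le_pow_left (succ_pow_le h (by omega)) 3
      calc (4 * (h + 1)) ^ (3 * (h + 1)) = (4 * (h + 1)) ^ 3 * 4 ^ (3 * h) * ((h + 1) ^ h) ^ 3 := by
            rw [mul_add 3 h 1, mul_one, pow_add, mul_pow 4 (h + 1) (3 * h), ← pow_mul, mul_comm h 3]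
            generalize (h + 1) ^ (3 * h) = z
            ring
        _ ≤ (4 * (h + 1)) ^ 3 * 4 ^ (3 * h) * (3 * h ^ h) ^ 3 := Nat.mul_le_mul_left _ this
        _ = 27 * (4 * (h + 1)) ^ 3 * (4 * h) ^ (3 * h) := by
            rw [mul_pow 4 h, mul_pow 3, ← pow_mul, mul_comm h 3]; ring
    have e3 : 27 * (4 * (h + 1)) ^ 3 ≤ (2 * h + 2) ^ 2 * (2 * h + 1) ^ 2 := by
      have : 432 * (h + 1) ≤ (2 * h + 1) ^ 2 := by nlinarith
      calc 27 * (4 * (h + 1)) ^ 3 = (2 * h + 2) ^ 2 * (432 * (h + 1)) := by ring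
        _ ≤ _ := Nat.mul_le_mul_left _ this
    rw [e1]
    calc (2 * (h + 1) + 1) ^ 2 * (4 * (h + 1)) ^ (3 * (h + 1))
        ≤ (2 * h + 3) ^ 2 * ((2 * h + 2) ^ 2 * (2 * h + 1) ^ 2 * (4 * h) ^ (3 * h)) :=
          Nat.mul_le_mul (le_of_eq (by ring)) (e2.trans (Nat.mul_le_mul_right _ e3))
      _ = ((2 * h + 3) * (2 * h + 2)) ^ 2 * ((2 * h + 1) ^ 2 * (4 * h) ^ (3 * h)) := by ring
      _ < ((2 * h + 3) * (2 * h + 2)) ^ 2 * (2 * h + 1)! ^ 2 :=
          Nat.mul_lt_mul_of_pos_left ih (by positivity)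
      _ = _ := by ring

theorem sq_le_fact (h : ℕ) : (2 ^ h * h !) ^ 2 ≤ (2 * h + 1)! := by
  induction h with
  | zero => simp
  | succ h ih =>
    have e1 : (2 * (h + 1) + 1)! = (2 * h + 3) * (2 * h + 2) * (2 * h + 1)! := by
      rw [show 2 * (h + 1) + 1 = (2 * h + 1 + 1) + 1 by ring, factorial_succ, factorial_succ]; ring
    rw [e1, factorial_succ]
    calc (2 ^ (h + 1) * ((h + 1) * h !)) ^ 2 = (2 * h + 2) * (2 * h + 2) * (2 ^ h * h !) ^ 2 := by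
          ring
      _ ≤ _ := Nat.mul_le_mul (Nat.mul_le_mul_right _ (by omega)) ih

theorem num {h k e : ℕ} (hh : 1 ≤ h) (ha : Adm (2 * h) k e) :
    (2 * h + 1) ^ 2 * (2 ^ h * h !) ^ 4 * 2 ^ (k * (e + min h e)) < (2 * h + 1)! ^ 4 := by
  obtain ⟨h1, h2, h3, h4⟩ := ha
  rcases lt_or_ge h 256 with hs | hs
  · have hk : k < 11 := by
      by_contra hk
      have : 2 ^ 10 ≤ 2 ^ (k - 1) := Nat.pow_le_pow_right (by norm_num) (by omega)
      omega
    refine lt_of_le_of_lt ?_ (num_small h hs k hk hh h2)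
    have he : e ≤ emax h k := by
      unfold emax
      split_ifs with hc
      · have := h4 hc.1 hc.2; omega
      · omega
    exact Nat.mul_le_mul_left _ (Nat.pow_le_pow_right (by norm_num)
      (Nat.mul_le_mul_left _ (Nat.add_le_add he (min_le_min_left _ he))))
  · have e1 : 2 ^ (k * (e + min h e)) ≤ (4 * h) ^ (3 * h) := by
      have hk : 2 ^ k ≤ 4 * h := by
        obtain ⟨k, rfl⟩ := Nat.exists_eq_add_of_le' h1
        rw [Nat.add_sub_cancel] at h2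
        rw [pow_succ]; omega
      rw [pow_mul]
      exact (Nat.pow_le_pow_left hk _).trans (Nat.pow_le_pow_right (by omega)
        (by have := min_le_left h e; omega))
    have e2 : (2 ^ h * h !) ^ 4 ≤ (2 * h + 1)! ^ 2 := by
      rw [show 4 = 2 * 2 by rfl, pow_mul]
      exact Nat.pow_le_pow_left (sq_le_fact h) 2
    calc (2 * h + 1) ^ 2 * (2 ^ h * h !) ^ 4 * 2 ^ (k * (e + min h e))
        ≤ (2 * h + 1) ^ 2 * (2 * h + 1)! ^ 2 * (4 * h) ^ (3 * h) :=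
          Nat.mul_le_mul (Nat.mul_le_mul_left _ e2) e1
      _ = (2 * h + 1)! ^ 2 * ((2 * h + 1) ^ 2 * (4 * h) ^ (3 * h)) := by ring
      _ < (2 * h + 1)! ^ 2 * (2 * h + 1)! ^ 2 :=
          Nat.mul_lt_mul_of_pos_left (num_ind h hs) (by positivity)
      _ = _ := by ring

end CfsgLib.Inv
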