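import Cfsg.Agent.Lib.Inv.Basic
import Cfsg.Agent.Lib.Inv.Num

/-! Permutation 2-groups for S3929. -/

set_option autoImplicit false

namespace CfsgLib.Inv

open Subgroup MulAction

theorem card_le_two_pow {H Ω : Type*} [Group H] [Finite H] [MulAction H Ω] [Finite Ω]
    (hH : IsPGroup 2 H) (s : Set Ω) (hs : ∀ g : H, ∀ x ∈ s, g • x ∈ s)
    (hf : ∀ g : H, (∀ x ∈ s, g • x = x) → g = 1) : Nat.card H ≤ 2 ^ (s.ncard - 1) := by
  let S : SubMulAction H Ω := ⟨s, fun g x hx => hs g x hx⟩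
  have hi : Function.Injective (toPermHom H S) := by
    rw [injective_iff_map_eq_one]
    intro g hg
    exact hf g fun x hx => congrArg Subtype.val (congrArg (fun σ : Equiv.Perm S => σ ⟨x, hx⟩) hg)
  have h1 := card_dvd_of_injective _ hi
  rw [Nat.card_perm, show Nat.card S = s.ncard from Nat.card_coe_set_eq s] at h1
  obtain ⟨p, hp⟩ := IsPGroup.iff_card.1 hH
  rw [hp] at h1 ⊢
  rcases eq_or_ne s.ncard 0 with h0 | h0
  · rw [h0] at h1
    exact (Nat.le_of_dvd one_pos h1).trans (Nat.one_le_pow _ _ two_pos)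
  · have h2 := (padicValNat_dvd_iff_le (Nat.factorial_ne_zero _)).1 h1
    have h3 := padicValNat_factorial_lt_of_ne_zero 2 h0
    exact Nat.pow_le_pow_right two_pos (by omega)

section comm

variable (W : Type*) [CommGroup W]

/-- The subgroup of `2 ^ q`-th powers. -/
def R (q : ℕ) : Subgroup W := (powMonoidHom (2 ^ q) : W →* W).range

/-- Its involutions. -/
def Om (q : ℕ) : Subgroup W := R W q ⊓ (powMonoidHom 2 : W →* W).ker

theorem R_succ (q : ℕ) : R W (q + 1) = (R W q).map (powMonoidHom 2) := by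
  rw [R, R, MonoidHom.map_range]
  congr 1
  ext x
  simp [pow_succ, pow_mul]

theorem card_R (q : ℕ) : Nat.card (R W q) = Nat.card (R W (q + 1)) * Nat.card (Om W q) := by
  rw [R_succ, Om, ← card_eq_map_mul]

theorem R_le {i j : ℕ} (h : i ≤ j) : R W j ≤ R W i := by
  obtain ⟨t, rfl⟩ := Nat.exists_eq_add_of_le h
  rintro _ ⟨x, rfl⟩
  exact ⟨x ^ 2 ^ t, by simp [pow_add, ← pow_mul, mul_comm]⟩

theorem card_R_zero : Nat.card (R W 0) = Nat.card W := by
  have : R W 0 = ⊤ := eq_top_iff.2 fun x _ => ⟨x, by simp⟩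
  rw [this, card_top]

variable [Finite W]

theorem Om_le {i j : ℕ} (h : i ≤ j) : Nat.card (Om W j) ≤ Nat.card (Om W i) :=
  card_le_of_le (inf_le_inf_right _ (R_le W h))

theorem card_R_le (q t : ℕ) :
    Nat.card (R W q) ≤ Nat.card (R W (q + t)) * Nat.card (Om W q) ^ t := by
  induction t with
  | zero => simp
  | succ t ih =>
    refine ih.trans ?_
    rw [card_R W (q + t), pow_succ', ← mul_assoc, ← add_assoc]
    exact Nat.mul_le_mul_right _ (Nat.mul_le_mul_left _ (Om_le W (by omega)))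

theorem le_card_R (q : ℕ) {j : ℕ} (hj : q ≤ j) :
    Nat.card (R W q) * Nat.card (Om W j) ^ q ≤ Nat.card W := by
  induction q with
  | zero => simp [card_R_zero]
  | succ t ih =>
    refine le_trans ?_ (ih (by omega))
    rw [card_R W t, pow_succ', ← mul_assoc]
    exact Nat.mul_le_mul_right _ (Nat.mul_le_mul_left _ (Om_le W (by omega)))

variable {W}

theorem R_eq_bot {j : ℕ} (h : ∀ x : W, x ^ 2 ^ j = 1) : Nat.card (R W j) = 1 := by
  rw [card_eq_one, eq_bot_iff]
  rintro _ ⟨x, rfl⟩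
  exact h x

theorem two_le_Om (hW : IsPGroup 2 W) {q : ℕ} (h : 1 < Nat.card (R W q)) :
    2 ≤ Nat.card (Om W q) := by
  obtain ⟨j, hj⟩ := IsPGroup.iff_card.1 hW
  by_contra h1
  have h2 : Nat.card (Om W q) = 1 := by have := Nat.card_pos (α := Om W q); omega
  have h3 := card_R_le W q j
  rw [h2, R_eq_bot (j := q + j) fun x => by rw [pow_add, pow_mul, ← hj, pow_card_eq_one']] at h3
  simp only [one_pow] at h3
  omega

theorem card_R_le_pow {j : ℕ} (hj : Nat.card W = 2 ^ j) (q : ℕ) :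
    Nat.card (R W q) ≤ 2 ^ (j - q) := by
  induction q with
  | zero => simp [card_R_zero, hj]
  | succ q ih =>
    rcases le_or_gt (Nat.card (R W q)) 1 with h | h
    · exact ((card_le_of_le (R_le W (by omega))).trans h).trans (Nat.one_le_pow _ _ two_pos)
    · have h1 := two_le_Om (IsPGroup.iff_card.2 ⟨j, hj⟩) h
      have h2 := card_R W q
      rcases eq_or_ne (j - q) 0 with h3 | h3
      · rw [h3] at ih; omega
      · rw [show j - q = j - (q + 1) + 1 by omega, pow_succ] at ih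
        nlinarith

theorem two_mul_le_two_pow (t : ℕ) : 2 * t ≤ 2 ^ t := by
  rcases t with _ | t
  · simp
  · have := Nat.lt_two_pow_self (n := t)
    rw [pow_succ]; omega

/-- Abelian permutation `2`-groups. -/
theorem pa {Ω : Type*} [MulAction W Ω] [Finite Ω] (hW : IsPGroup 2 W) (q N : ℕ) :
    ∀ s : Set Ω, s.ncard = N → (∀ g : W, ∀ x ∈ s, g • x ∈ s) → ∀ K ≤ R W q,
      (∀ g ∈ K, (∀ x ∈ s, g • x = x) → g = 1) → ∀ σ : ℕ, 2 ^ σ ≤ Nat.card K →
      2 ^ (q + 1) * σ ≤ N := by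
  induction N using Nat.strong_induction_on with
  | _ N ih =>
  intro s hN hs K hK hf σ hσ
  rcases s.eq_empty_or_nonempty with rfl | ⟨x, hx⟩
  · have : K = ⊥ := eq_bot_iff.2 fun g hg => hf g hg (by simp)
    rw [this, card_bot] at hσ
    have : σ = 0 := by
      by_contra h
      have := Nat.one_lt_two_pow h
      omega
    simp [this]
  obtain ⟨j, hj⟩ := hW.index (stabilizer W x)
  have hO : orbit W x ⊆ s := by
    rintro _ ⟨g, rfl⟩
    exact hs g x hx
  have h1 : (s \ orbit W x).ncard + 2 ^ j = N := by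
    rw [← hj, index_stabilizer, ← hN, Set.ncard_diff_add_ncard_of_subset hO]
  have h2 : Nat.card K ≤ 2 ^ (j - q) * Nat.card (K ⊓ stabilizer W x : Subgroup W) := by
    have := card_eq_map_mul K (QuotientGroup.mk' (stabilizer W x))
    rw [QuotientGroup.ker_mk'] at this
    rw [this]
    refine Nat.mul_le_mul_right _ (le_trans (card_le_of_le ?_) (card_R_le_pow hj q))
    rintro _ ⟨g, hg, rfl⟩
    obtain ⟨y, rfl⟩ := hK hg
    exact ⟨QuotientGroup.mk' _ y, by simp⟩
  have h3 := ih _ (by have := Nat.one_le_two_pow (n := j); omega) (s \ orbit W x) rfl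
    (fun g y hy => ⟨hs g y hy.1, fun h => hy.2 (by
      obtain ⟨g', hg'⟩ := h
      exact ⟨g⁻¹ * g', by simp only at hg' ⊢; rw [mul_smul, hg', inv_smul_smul]⟩)⟩)
    (K ⊓ stabilizer W x) (inf_le_left.trans hK) (fun g hg h => hf g hg.1 fun y hy => by
      by_cases hy' : y ∈ orbit W x
      · obtain ⟨g', rfl⟩ := hy'
        simp only
        rw [smul_comm g g' x, show g • x = x from hg.2]
      · exact h y ⟨hy, hy'⟩) (σ - (j - q)) (by
      rcases le_total σ (j - q) with h | h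
      · rw [Nat.sub_eq_zero_of_le h]; exact Nat.card_pos
      · refine Nat.le_of_mul_le_mul_left (le_trans ?_ (hσ.trans h2)) (Nat.two_pow_pos (j - q))
        rw [← pow_add, Nat.add_sub_cancel' h])
  have h4 : 2 ^ (q + 1) * (j - q) ≤ 2 ^ j := by
    rcases le_total j q with h | h
    · simp [Nat.sub_eq_zero_of_le h]
    · obtain ⟨t, rfl⟩ := Nat.exists_eq_add_of_le h
      rw [Nat.add_sub_cancel_left, pow_succ, mul_assoc, pow_add]
      exact Nat.mul_le_mul_left _ (two_mul_le_two_pow t)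
  calc 2 ^ (q + 1) * σ ≤ 2 ^ (q + 1) * (σ - (j - q) + (j - q)) :=
        Nat.mul_le_mul_left _ (by omega)
    _ ≤ N := by rw [mul_add]; omega

theorem pa' {Ω : Type*} [MulAction W Ω] [Finite Ω] (hW : IsPGroup 2 W)
    (hf : ∀ g : W, (∀ x : Ω, g • x = x) → g = 1) {q σ : ℕ} (h : 2 ^ σ ≤ Nat.card (R W q)) :
    2 ^ (q + 1) * σ ≤ Nat.card Ω :=
  pa hW q _ Set.univ (Set.ncard_univ Ω) (fun _ _ _ => trivial) _ le_rfl
    (fun g _ h => hf g fun x => h x trivial) σ h

end comm

variable {P Ω : Type*} [Group P] [Finite P] [MulAction P Ω] [Finite Ω]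

/-- The long cycle case. -/
theorem pc (hP : IsPGroup 2 P) (hf : ∀ g : P, (∀ x : Ω, g • x = x) → g = 1) {d : P} {f n : ℕ}
    (hd : d ^ 2 ^ f ≠ 1) (hn : Nat.card Ω ≤ n) (hn' : n < 2 ^ (f + 2)) :
    Nat.card (centralizer {d} : Subgroup P) ≤ 2 ^ (f + 1 + (n - 2 ^ (f + 1) - 1)) := by
  obtain ⟨x, hx⟩ : ∃ x : Ω, d ^ 2 ^ f • x ≠ x := by
    by_contra h
    push Not at h
    exact hd (hf _ h)
  set C : Subgroup P := centralizer {d}
  obtain ⟨j, hj⟩ := (hP.to_subgroup (zpowers d)).index (stabilizer (zpowers d) x)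
  obtain ⟨i, hi⟩ := (hP.to_subgroup C).index (stabilizer C x)
  have h1 : f + 1 ≤ j := by
    by_contra h
    obtain ⟨t, rfl⟩ := Nat.exists_eq_add_of_le (show j ≤ f by omega)
    have := (stabilizer (zpowers d) x).pow_mem
      ((stabilizer (zpowers d) x).pow_index_mem ⟨d, mem_zpowers d⟩) (2 ^ t)
    rw [hj, ← pow_mul, ← pow_add] at this
    exact hx this
  have h2 : i ≤ f + 1 := by
    have : 2 ^ i < 2 ^ (f + 2) := by
      rw [← hi, index_stabilizer]
      exact (Set.ncard_le_card _).trans_lt (hn.trans_lt hn')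
    have := (Nat.pow_lt_pow_iff_right (by norm_num)).1 this
    omega
  have hfix : ∀ g : stabilizer C x, ∀ y ∈ orbit (zpowers d) x, g • y = y := by
    rintro ⟨⟨g, hg⟩, hg'⟩ _ ⟨⟨_, k, rfl⟩, rfl⟩
    have e : g * d ^ k = d ^ k * g :=
      (Commute.zpow_right (mem_centralizer_singleton_iff.1 hg) k).eq
    show g • d ^ k • x = d ^ k • x
    rw [← mul_smul, e, mul_smul, show g • x = x from hg']
  have h3 := card_le_two_pow ((hP.to_subgroup C).to_subgroup (stabilizer C x))
    (orbit (zpowers d) x)ᶜ (fun g y hy h => hy (by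
      have := hfix g⁻¹ _ h
      rw [inv_smul_smul] at this
      exact this ▸ h)) (fun g h => Subtype.ext (Subtype.ext (hf _ fun y => by
      by_cases hy : y ∈ orbit (zpowers d) x
      · exact hfix g y hy
      · exact h y hy)))
  have h4 : (orbit (zpowers d) x)ᶜ.ncard + 2 ^ j = Nat.card Ω := by
    rw [← hj, index_stabilizer, add_comm, Set.ncard_add_ncard_compl]
  have h5 : 2 ^ (f + 1) ≤ 2 ^ j := Nat.pow_le_pow_right two_pos h1
  rw [← (stabilizer C x).index_mul_card, hi, pow_add 2 (f + 1)]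
  exact Nat.mul_le_mul (Nat.pow_le_pow_right two_pos h2)
    (h3.trans (Nat.pow_le_pow_right two_pos (by omega)))

theorem card_le_mul_centralizer (W : Subgroup P) [hW : W.Normal] {d : P} (hd : d ∈ W) :
    Nat.card P ≤ Nat.card (centralizer {d} : Subgroup P) * Nat.card W := by
  rw [← Set.ncard_univ, card_eq_ncard W]
  refine fib_le (fun g => g * d * g⁻¹) (fun g _ => hW.conj_mem d hd g) _ fun g₀ _ => ?_
  refine ncard_le_card _ (fun g => g₀⁻¹ * g) (fun g hg => mem_centralizer_singleton_iff.2 ?_)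
    fun y _ y' _ e => by simpa using e
  have e : g * d * g⁻¹ = g₀ * d * g₀⁻¹ := hg.2
  calc g₀⁻¹ * g * d = g₀⁻¹ * (g * d * g⁻¹) * g := by group
    _ = _ := by rw [e]; group

open scoped IsMulCommutative in
theorem adm (hP : IsPGroup 2 P) (hf : ∀ g : P, (∀ x : Ω, g • x = x) → g = 1) {n : ℕ}
    (hn : Nat.card Ω ≤ n) (hn1 : 1 ≤ n) (W : Subgroup P) [W.Normal] [IsMulCommutative W] :
    ∃ k e, Adm n (k + 1) e ∧ Nat.card P = 2 ^ e * Nat.card W ∧
      ∀ q ≤ k, Nat.card (R W q) ≤ 2 ^ (2 ^ (k - q) - 1) := by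
  classical
  have hW := hP.to_subgroup W
  have hfW : ∀ g : W, (∀ x : Ω, g • x = x) → g = 1 := fun g h => Subtype.ext (hf _ h)
  obtain ⟨e, he⟩ := hP.index W
  obtain ⟨w, hw⟩ := IsPGroup.iff_card.1 hW
  have hc : Nat.card P = 2 ^ e * Nat.card W := by rw [← he, index_mul_card]
  have hp : e + w ≤ n - 1 := by
    have := card_le_two_pow hP (Set.univ : Set Ω) (fun _ _ _ => trivial)
      fun g h => hf g fun x => h x trivial
    rw [hc, hw, ← pow_add, Set.ncard_univ] at this
    have := (Nat.pow_le_pow_iff_right (by norm_num)).1 this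
    omega
  have hex : ∃ k, ∀ q ≤ k, Nat.card (R W q) ≤ 2 ^ (2 ^ (k - q) - 1) := by
    refine ⟨n, fun q hq => ?_⟩
    obtain ⟨σ, hσ⟩ := IsPGroup.iff_card.1 (hW.to_subgroup (R W q))
    have h1 := (pa' hW hfW hσ.ge).trans (hn.trans (Nat.lt_two_pow_self.le))
    obtain ⟨t, rfl⟩ := Nat.exists_eq_add_of_le hq
    rw [pow_add 2 q t, pow_succ, mul_assoc] at h1
    have h2 := Nat.le_of_mul_le_mul_left h1 (Nat.two_pow_pos q)
    have h3 := Nat.one_le_two_pow (n := t)
    rw [hσ, Nat.add_sub_cancel_left]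
    exact Nat.pow_le_pow_right two_pos (by omega)
  refine ⟨Nat.find hex, e, ?_, hc, Nat.find_spec hex⟩
  rcases h0 : Nat.find hex with _ | k
  · exact ⟨le_rfl, hn1, by omega, by omega⟩
  have h1 := Nat.find_min hex (m := k) (by omega)
  push Not at h1
  obtain ⟨q, hq, h1⟩ := h1
  obtain ⟨t, rfl⟩ := Nat.exists_eq_add_of_le hq
  obtain ⟨σ, hσ⟩ := IsPGroup.iff_card.1 (hW.to_subgroup (R W q))
  obtain ⟨r, hr⟩ := IsPGroup.iff_card.1 (hW.to_subgroup (Om W q))
  rw [Nat.add_sub_cancel_left, hσ] at h1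
  have h2 := (Nat.pow_lt_pow_iff_right (by norm_num)).1 h1
  have h3 := Nat.lt_two_pow_self (n := t)
  have h4 : 2 ^ t ≤ σ := by omega
  have h5 := (Nat.mul_le_mul_left _ h4).trans ((pa' hW hfW hσ.ge).trans hn)
  rw [← pow_add] at h5
  have h6 := le_card_R W q le_rfl
  rw [hσ, hr, hw, ← pow_mul, ← pow_add] at h6
  replace h6 := (Nat.pow_le_pow_iff_right (by norm_num)).1 h6
  have h7 := two_le_Om hW (q := q) (hσ ▸ Nat.one_lt_two_pow (by omega))
  have h8 : 1 ≤ r := by
    by_contra h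
    rw [hr, show r = 0 by omega] at h7
    omega
  have h9 : q ≤ r * q := Nat.le_mul_of_pos_left _ h8
  refine ⟨by omega, by rwa [show q + t + 1 + 1 - 1 = q + 1 + t by omega], by omega, fun a1 a2 => ?_⟩
  by_cases hd : ∀ d : W, d ^ 2 ^ (q + t) = 1
  · have b1 := card_R_le W q t
    rw [R_eq_bot hd, hσ, hr, one_mul, ← pow_mul] at b1
    replace b1 := (Nat.pow_le_pow_iff_right (by norm_num)).1 b1
    have b2 : 2 ≤ r := by
      by_contra h
      rw [show r = 1 by omega] at b1
      omega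
    have b3 := Nat.mul_le_mul_right q b2
    have b4 := two_mul_le_two_pow t
    omega
  · push Not at hd
    obtain ⟨d, hd⟩ := hd
    have b1 := (card_le_mul_centralizer W d.2).trans (Nat.mul_le_mul_right _
      (pc hP hf (d := d) (f := q + t) (fun h => hd (Subtype.ext h)) hn a2))
    rw [hc] at b1
    have b2 := (Nat.pow_le_pow_iff_right (by norm_num)).1
      (Nat.le_of_mul_le_mul_right b1 Nat.card_pos)
    rw [show q + 1 + t = q + t + 1 by omega] at h5
    have b3 : ∀ f, 3 ≤ f → 3 * f + 2 ≤ 2 ^ (f + 1) := by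
      intro f hf
      induction f, hf using Nat.le_induction with
      | base => norm_num
      | succ f _ ih => rw [pow_succ]; omega
    have := b3 (q + t) (by omega)
    omega

end CfsgLib.Inv
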