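import Cfsg.Agent.Lib.Inv.Perm
import Cfsg.Agent.Lib.Inv.Mod
import Cfsg.Agent.Lib.PGroupBasic

/-! The 2-group estimate for S3929. -/

set_option autoImplicit false

namespace CfsgLib.Inv

open Subgroup PGrp
open scoped IsMulCommutative commutatorElement

variable {S : Type*} [Group S] [Finite S]

theorem exists_selfcent (hS : IsPGroup 2 S) (T : Subgroup S) [T.Normal] :
    ∃ A : Subgroup S, A.Normal ∧ A ≤ T ∧ (∀ x ∈ A, ∀ y ∈ A, x * y = y * x) ∧
      ∀ t ∈ T, (∀ u ∈ A, u * t = t * u) → t ∈ A := by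
  have := hS.isNilpotent
  obtain ⟨A, ⟨h1, h2, h3⟩, hm⟩ := Set.Finite.exists_maximal
    (s := {A : Subgroup S | A.Normal ∧ A ≤ T ∧ ∀ x ∈ A, ∀ y ∈ A, x * y = y * x}) (Set.toFinite _)
    ⟨⊥, inferInstance, bot_le, fun x hx y _ => by rw [mem_bot.1 hx]; simp⟩
  refine ⟨A, h1, h2, h3, fun t ht hc => ?_⟩
  suffices T ⊓ centralizer (A : Set S) ≤ A from this ⟨ht, hc⟩
  by_contra h
  obtain ⟨x, hx, hxA, hx'⟩ := exists_central_mod A _ h
  refine hxA (hm ⟨normal_sup_zpowers_of_central_mod A hx', sup_le h2 (zpowers_le.2 hx.1), ?_⟩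
    le_sup_left (mem_sup_right (mem_zpowers x)))
  have h4 : A ⊔ zpowers x ≤ centralizer (A ∪ {x}) := by
    refine sup_le (fun u hu => ?_) (zpowers_le.2 ?_)
    · rintro v (hv | rfl)
      · exact h3 v hv u hu
      · exact (hx.2 u hu).symm
    · rintro v (hv | rfl)
      · exact hx.2 v hv
      · rfl
  intro u hu v hv
  have := h4 hv
  rw [← centralizer_closure, Subgroup.closure_union, Subgroup.closure_eq, ← zpowers_eq_closure] at this
  exact this u hu

variable (A : Subgroup S) [hA : A.Normal] [IsMulCommutative A]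

/-- Conjugation action on an abelian normal subgroup, additively. -/
def rho : S →* AddMonoid.End (Additive A) where
  toFun s := MonoidHom.toAdditive (MulAut.conjNormal s : MulAut A).toMonoidHom
  map_one' := by rw [map_one]; rfl
  map_mul' s t := by rw [map_mul]; rfl

theorem rho_apply (s : S) (m : Additive A) :
    ((rho A s m).toMul : S) = s * m.toMul * s⁻¹ := rfl

variable {A} {T : Subgroup S} (hAT : A ≤ T) {β : S} (hβ : β * β = 1)

/-- The map `u ↦ u u^β`. -/
def om : A →* (T ⊓ centralizer {β} : Subgroup S) where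
  toFun u := ⟨u * (β * u * β⁻¹), hAT (mul_mem u.2 (hA.conj_mem _ u.2 β)), by
    refine mem_centralizer_singleton_iff.2 ?_
    nth_rewrite 1 [mul_comm_of_mem_isMulCommutative A u.2 (hA.conj_mem _ u.2 β)]
    rw [inv_eq_of_mul_eq_one_right hβ]
    simp only [mul_assoc]⟩
  map_one' := by ext; simp
  map_mul' u v := by
    ext
    show ((u : S) * v) * (β * (u * v) * β⁻¹) = u * (β * u * β⁻¹) * (v * (β * v * β⁻¹))
    rw [mul_assoc (u : S) (β * u * β⁻¹), ← mul_assoc (β * u * β⁻¹),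
      mul_comm_of_mem_isMulCommutative A (hA.conj_mem _ u.2 β) v.2]
    group

include hAT hβ in
theorem two (hS : IsPGroup 2 S) (hC : ∀ t ∈ T, (∀ u ∈ A, u * t = t * u) → t ∈ A)
    {Ω : Type*} [Finite Ω] (φ : (T ⊓ centralizer {β} : Subgroup S) →* Equiv.Perm Ω)
    (hφ : Function.Injective φ) {h : ℕ} (hh : 1 ≤ h) (hΩ : Nat.card Ω ≤ 2 * h) :
    ∃ k e, Adm (2 * h) k e ∧
      {y | y ∈ T ∧ β * y * β⁻¹ = y⁻¹}.ncard ≤ Nat.card A * 2 ^ (k * e) ∧
      ∀ D : Subgroup S, D ≤ T → (∀ y ∈ D, β * y * β⁻¹ = y⁻¹) → D ⊓ A = ⊥ →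
        Nat.card D ≤ 2 ^ (k * min h e) := by
  let P : Subgroup S := T ⊓ centralizer {β}
  let _ : MulAction P Ω := MulAction.compHom Ω φ
  have hf : ∀ g : P, (∀ x : Ω, g • x = x) → g = 1 := fun g hg =>
    (injective_iff_map_eq_one φ).1 hφ g (Equiv.ext hg)
  let ω : A →* P := om hAT hβ
  have hω : ∀ u : A, (ω u : S) = u * (β * u * β⁻¹) := fun _ => rfl
  have hWA : ∀ w ∈ ω.range, (w : S) ∈ A := by
    rintro _ ⟨u, rfl⟩
    exact mul_mem u.2 (hA.conj_mem _ u.2 β)
  have : ω.range.Normal := ⟨by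
    rintro _ ⟨u, rfl⟩ p
    refine ⟨⟨p * u * (p : S)⁻¹, hA.conj_mem _ u.2 _⟩, Subtype.ext ?_⟩
    have e : (p : S) * β = β * p := mem_centralizer_singleton_iff.1 p.2.2
    show (p : S) * u * (p : S)⁻¹ * (β * (p * u * (p : S)⁻¹) * β⁻¹) =
      p * (u * (β * u * β⁻¹)) * (p : S)⁻¹
    calc _ = (p : S) * u * (p : S)⁻¹ * (β * p) * u * (β * p)⁻¹ := by group
      _ = _ := by rw [← e]; group⟩
  have : IsMulCommutative ω.range := ⟨⟨fun x y => Subtype.ext (Subtype.ext
    (mul_comm_of_mem_isMulCommutative A (hWA _ x.2) (hWA _ y.2)))⟩⟩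
  obtain ⟨k, e, h1, h2, h3⟩ := adm (hS.to_subgroup P) hf hΩ (by omega) ω.range
  obtain ⟨s, hs⟩ := IsPGroup.iff_card.1 hS
  have hpow : ∀ y ∈ T, β * y * β⁻¹ = y⁻¹ → y ^ 2 ^ (k + 1) ∈ A := by
    intro y hy hy'
    have h4 := pow_eq_one_of_card (rho A y) (rho A β) (by rw [← map_mul, hβ, map_one])
      (by
        rw [← map_mul, ← map_mul]
        congr 1
        calc y * β * y = y * (β * y * β⁻¹) * β := by group
          _ = β := by rw [hy']; group) (r := s) (by rw [← map_pow, ← hs, pow_card_eq_one', map_one])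
      ⟨s, by
        refine AddMonoidHom.ext fun m => ?_
        have : ((2 : AddMonoid.End (Additive A)) ^ s) = ((2 ^ s : ℕ) : AddMonoid.End (Additive A)) := by
          push_cast; rfl
        rw [this]
        refine Subtype.ext ?_
        show (m.toMul : S) ^ (2 ^ s) = 1
        rw [← hs, pow_card_eq_one']⟩ k fun q hq => by
      refine le_trans ?_ (h3 q hq)
      rw [card_eq_ncard (R _ q)]
      refine le_trans (le_trans (Nat.card_coe_set_eq _).le (Set.ncard_le_ncard ?_ (Set.toFinite _)))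
        (Set.ncard_image_le (f := fun w : ω.range => Additive.ofMul (⟨w, hWA _ w.2⟩ : A)))
      rintro _ ⟨m, rfl⟩
      refine ⟨⟨ω m.toMul, _, rfl⟩ ^ 2 ^ q, ⟨_, rfl⟩, ?_⟩
      have : ((2 : AddMonoid.End (Additive A)) ^ q) = ((2 ^ q : ℕ) : AddMonoid.End (Additive A)) := by
        push_cast; rfl
      rw [this]
      rfl
    refine hC _ (pow_mem hy _) fun u hu => ?_
    have := rho_apply A (y ^ 2 ^ (k + 1)) (Additive.ofMul ⟨u, hu⟩)
    rw [map_pow, h4] at this
    exact eq_mul_inv_iff_mul_eq.1 this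
  refine ⟨k + 1, e, h1, ?_, fun D hDT hD hDA => ?_⟩
  · have h4 : Nat.card (T.map (QuotientGroup.mk' A) ⊓ centralizer {QuotientGroup.mk' A β} :
        Subgroup (S ⧸ A)) ≤ 2 ^ e := by
      have h5 : Nat.card A = Nat.card ω.range * Nat.card (ω.ker.map A.subtype) := by
        rw [card_map_subtype, ← index_ker, index_mul_card]
      refine Nat.le_of_mul_le_mul_right ?_ (Nat.card_pos (α := A))
      rw [← card_comap_mk', card_eq_ncard]
      nth_rewrite 1 [h5]
      rw [← mul_assoc, ← h2, card_eq_ncard (ω.ker.map A.subtype)]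
      have hT : ∀ t, QuotientGroup.mk' A t ∈ T.map (QuotientGroup.mk' A) → t ∈ T := fun t ht => by
        have : t ∈ (T.map (QuotientGroup.mk' A)).comap (QuotientGroup.mk' A) := ht
        rwa [comap_map_eq, QuotientGroup.ker_mk', sup_eq_left.2 hAT] at this
      refine fib_le (fun t => t * β * t⁻¹ * β⁻¹) (fun t ht => ?_) _ fun t₀ ht₀ => ?_
      · have h6 : t * β * t⁻¹ * β⁻¹ ∈ A := by
          rw [← QuotientGroup.ker_mk' A, MonoidHom.mem_ker, map_mul, map_mul, map_mul,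
            mem_centralizer_singleton_iff.1 ht.2]
          simp
        refine ⟨⟨_, h6⟩, Subtype.ext ?_, rfl⟩
        show t * β * t⁻¹ * β⁻¹ * (β * (t * β * t⁻¹ * β⁻¹) * β⁻¹) = 1
        rw [inv_eq_of_mul_eq_one_right hβ]
        calc _ = t * β * t⁻¹ * (β * β) * t * β * t⁻¹ * (β * β) := by group
          _ = t * (β * β) * t⁻¹ := by nth_rewrite 1 [hβ]; nth_rewrite 1 [hβ]; group
          _ = 1 := by simp [hβ]
      · refine ncard_le_card _ (fun t => t₀⁻¹ * t) (fun t ht => ⟨T.mul_mem (T.inv_mem (hT _ ht₀.1))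
          (hT _ ht.1.1), mem_centralizer_singleton_iff.2 ?_⟩) fun y _ y' _ e => by simpa using e
        have e : t * β * t⁻¹ * β⁻¹ = t₀ * β * t₀⁻¹ * β⁻¹ := ht.2
        calc t₀⁻¹ * t * β = t₀⁻¹ * (t * β * t⁻¹ * β⁻¹) * β * t := by group
          _ = _ := by rw [e]; group
    refine (fib_le (QuotientGroup.mk' A) (fun y hy => ?_) _ fun y₀ _ => ?_).trans
      (Nat.mul_le_mul_left _ ((tree (T.map (QuotientGroup.mk' A)) (QuotientGroup.mk' A β)
        (k + 1)).trans ?_))
    · refine ⟨mem_map_of_mem _ hy.1, ?_, ?_⟩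
      · rw [← map_inv, ← map_mul, ← map_mul, hy.2, map_inv]
      · rw [← map_pow, ← MonoidHom.mem_ker, QuotientGroup.ker_mk']
        exact hpow y hy.1 hy.2
    · exact ncard_le_card _ (fun y => y⁻¹ * y₀) (fun y hy => QuotientGroup.eq.1 hy.2)
        fun y _ y' _ e => by simpa using e
    · rw [mul_comm, pow_mul]
      exact Nat.pow_le_pow_left h4 _
  · set E : Subgroup S := D ⊓ centralizer {β}
    have hEP : E ≤ P := inf_le_inf_right _ hDT
    have : IsMulCommutative (E.subgroupOf P) := ⟨⟨fun x y => Subtype.ext (Subtype.ext (by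
      have hx : (x.1.1 : S) ∈ D := x.2.1
      have hy : (y.1.1 : S) ∈ D := y.2.1
      have e := hD _ (mul_mem hx hy)
      rw [show β * ((x.1.1 : S) * y.1.1) * β⁻¹ = (β * x.1.1 * β⁻¹) * (β * y.1.1 * β⁻¹) by group,
        hD _ hx, hD _ hy, ← mul_inv_rev] at e
      exact (inv_injective e).symm))⟩⟩
    have hE := (hS.to_subgroup P).to_subgroup (E.subgroupOf P)
    obtain ⟨r, hr⟩ := IsPGroup.iff_card.1 hE
    have h4 := (pa' (q := 0) hE (fun g hg => Subtype.ext (hf _ hg))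
      (by rw [card_R_zero, hr])).trans hΩ
    have h5 : 2 ^ r ≤ 2 ^ e := by
      refine Nat.le_of_mul_le_mul_right ?_ (Nat.card_pos (α := ω.range))
      rw [← h2, ← hr, ← card_sup_of_disjoint (by rw [normalizer_eq_top]; exact le_top)]
      · exact card_le_card_group _
      · rw [eq_bot_iff]
        intro x hx
        exact Subtype.ext (mem_bot.1 (hDA.le ⟨hx.1.1, hWA _ hx.2⟩))
    replace h5 := (Nat.pow_le_pow_iff_right (by norm_num)).1 h5
    rw [card_subgroupOf_of_le hEP] at hr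
    refine le_trans ?_ ((tree D β (k + 1)).trans ?_)
    · rw [card_eq_ncard]
      exact Set.ncard_le_ncard fun y hy => ⟨hy, hD y hy,
        mem_bot.1 (hDA.le ⟨pow_mem hy _, hpow y (hDT hy) (hD y hy)⟩)⟩
    · rw [hr, ← pow_mul, mul_comm]
      exact Nat.pow_le_pow_right two_pos (Nat.mul_le_mul_left _ (by omega))

end CfsgLib.Inv
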